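import Cfsg.Agent.H194.RC.SpEx
import Cfsg.Agent.H385.RC.Ev

/-!
# S3510, row D (symplectic groups), even characteristic: the environment (helper194)

* `exists_ev` : from `SpEnv` in characteristic two: every element has a unique lift with multiplier one, so `G` acts on `V`;
* `env_restrict` : the environment of an intermediate subgroup;
* `even_reduce` : a cover of `G` by elements induced by semisimilitudes: reduction to `Ev`.
-/

set_option autoImplicit false
open Cfsg

namespace Cfsg.Agent.H194.RC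

open MulAction Module Cfsg.Agent.H106.RC Cfsg.Agent.H520.RC Cfsg.Agent.H385.RC
open Cfsg.Agent.ClassicalGeometry.SympAutSemi Cfsg.Agent.ClassicalGeometry.SympBasic

section env

variable {F V G Ω : Type*} [Field F] [AddCommGroup V] [Module F V] {B : LinearMap.BilinForm F V} [Group G]
  [MulAction G Ω] {N : Subgroup G} {ρ : ↥(Sp B) →* G}

/-- the action given by semisimilitudes -/
@[reducible] def actOf (ψ : G →* SS B) : DistribMulAction G V where
  smul g v := ψ g v
  one_smul v := by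
    change ψ 1 v = v
    rw [map_one]; rfl
  mul_smul g h v := by
    change ψ (g * h) v = ψ g (ψ h v)
    rw [map_mul]; rfl
  smul_zero g := (ψ g).map_zero
  smul_add g u v := (ψ g).map_add u v

theorem ss_eq (hB : NAlt B) (hd : 1 ≤ finrank F V) (h2 : (2 : F) = 0) {M L : SS B} (hM : M.l = 1) (hL : L.l = 1)
    {a : F} (h : ∀ v, L v = a • M v) : L = M := by
  have : Nontrivial V := Module.nontrivial_of_finrank_pos (R := F) (by omega)
  obtain ⟨u, hu⟩ := exists_ne (0 : V)
  obtain ⟨v, hv⟩ := hB.exists_one hu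
  have h1 := L.form u v
  have h3 := M.form u v
  rw [hv, map_one, hM, mul_one] at h3
  rw [hv, map_one, hL, mul_one, h, h, map_smul, LinearMap.map_smul₂, h3, smul_eq_mul, smul_eq_mul, mul_one] at h1
  have ha : a = 1 := by
    have h4 : (a - 1) * (a - 1) = 0 := by linear_combination h1 - (a - 1) * h2
    rcases mul_eq_zero.1 h4 with h5 | h5 <;> exact sub_eq_zero.1 h5
  have h4 : ∀ v, L v = M v := fun v => by rw [h, ha, one_smul]
  refine SS.ext' h4 ?_ (hL.trans hM.symm)
  ext c
  have h5 := L.map_smul c u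
  rw [h4, h4, M.map_smul] at h5
  have h6 : (M.σ c - L.σ c) • M u = 0 := by rw [sub_smul, h5, sub_self]
  rcases smul_eq_zero.1 h6 with h7 | h7
  · exact (sub_eq_zero.1 h7).symm
  · exact absurd (M.injective (h7.trans M.map_zero.symm)) hu

/-- the lifts with multiplier one -/
theorem exists_hom [Finite F] [FiniteDimensional F V] (E : SpEnv Ω N ρ) (h2 : (2 : F) = 0) :
    ∃ ψ : G →* SS B, ∀ x, Lf ρ x (ψ x) ∧ (ψ x).l = 1 := by
  have hd : 1 ≤ finrank F V := le_trans (by norm_num) E.dim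
  have hchar : CharP F 2 := CharTwo.of_one_ne_zero_of_two_eq_zero one_ne_zero h2
  have h1 : ∀ x : G, ∃ M : SS B, Lf ρ x M ∧ M.l = 1 := by
    intro x
    obtain ⟨M, hM⟩ := E.lift x
    have := Fintype.ofFinite F
    obtain ⟨a, ha⟩ := FiniteField.isSquare_of_char_two (ringChar.eq F 2).symm.symm M.l
    have ha0 : a ≠ 0 := by
      rintro rfl
      rw [mul_zero] at ha
      exact M.hl ha
    refine ⟨SS.sc B a⁻¹ (inv_ne_zero ha0) * M, hM.of_scal ⟨a⁻¹, inv_ne_zero ha0, fun v => rfl⟩, ?_⟩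
    rw [SS.mul_l]
    change a⁻¹ * a⁻¹ * M.l = 1
    rw [ha]
    field_simp
  choose ψ hψ using h1
  have hu : ∀ {x : G} {M L : SS B}, Lf ρ x M → Lf ρ x L → M.l = 1 → L.l = 1 → L = M := by
    intro x M L h h' hM hL
    obtain ⟨a, -, ha⟩ := E.lf_unique h h'
    exact ss_eq E.form hd h2 hM hL ha
  refine ⟨{ toFun := ψ, map_one' := hu Lf.one (hψ 1).1 rfl (hψ 1).2, map_mul' := fun x y => ?_ }, hψ⟩
  refine hu ((hψ x).1.mul (hψ y).1) (hψ _).1 ?_ (hψ _).2
  rw [SS.mul_l, (hψ x).2, (hψ y).2, map_one, mul_one]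

/-- **The environment in characteristic two.** -/
theorem exists_ev [Finite F] [FiniteDimensional F V] (E : SpEnv Ω N ρ) (h2 : (2 : F) = 0) :
    ∃ I : DistribMulAction G V, @Ev F V G _ _ _ _ I B N := by
  have hd : 1 ≤ finrank F V := le_trans (by norm_num) E.dim
  obtain ⟨ψ, hψ⟩ := exists_hom E h2
  have htg : ∀ t, ψ (ρ t) = SS.tg t := by
    intro t
    obtain ⟨a, -, ha⟩ := E.lf_unique (Lf.tg t) (hψ (ρ t)).1
    exact ss_eq E.form hd h2 rfl (hψ (ρ t)).2 ha
  refine ⟨actOf ψ, ?_⟩
  let _ := actOf ψ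
  have hsm : ∀ (g : G) (v : V), g • v = ψ g v := fun _ _ => rfl
  refine ⟨E.form.alt, E.form.nd, h2, ?_, ?_, ?_, ?_⟩
  · intro g hg
    refine (E.eq_one_iff (hψ g).1).2 ⟨1, one_ne_zero, fun v => ?_⟩
    rw [one_smul]
    exact hg v
  · intro g
    refine ⟨(ψ g).σ, fun a v => (ψ g).map_smul a v, fun u v => ?_⟩
    rw [hsm, hsm, (ψ g).form, (hψ g).2, one_mul]
  · intro g
    constructor
    · intro hg a v
      rw [← E.range] at hg
      obtain ⟨t, rfl⟩ := hg
      rw [hsm, hsm, htg]
      exact _root_.map_smul t.1 a v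
    · intro hg
      have h3 : ∀ u v, B (ψ g u) (ψ g v) = B u v := by
        intro u v
        rw [(ψ g).form, (hψ g).2, one_mul]
        have : Nontrivial V := Module.nontrivial_of_finrank_pos (R := F) (by omega)
        obtain ⟨w, hw⟩ := exists_ne (0 : V)
        have h4 := hg (B u v) w
        rw [hsm, hsm, (ψ g).map_smul] at h4
        have h5 : ((ψ g).σ (B u v) - B u v) • ψ g w = 0 := by rw [sub_smul, h4, sub_self]
        rcases smul_eq_zero.1 h5 with h6 | h6
        · exact sub_eq_zero.1 h6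
        · exact absurd ((ψ g).injective (h6.trans (ψ g).map_zero.symm)) hw
      let t : ↥(Sp B) := ⟨{ (ψ g).f with map_smul' := fun a v => hg a v }, h3⟩
      have h4 : g = ρ t := E.eq_of_lf (hψ g).1 (t := t) one_ne_zero fun v => by
        rw [one_smul]; rfl
      rw [h4, ← E.range]
      exact ⟨t, rfl⟩
  · intro A hA
    refine ⟨ρ ⟨A, hA⟩, fun v => ?_⟩
    rw [hsm, htg]
    rfl

/-- the environment of an intermediate subgroup -/
theorem env_restrict (hE : Env G Ω N) {H : Subgroup G} (hN : N ≤ H) : Env H Ω (N.subgroupOf H) where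
  norm := by
    have := hE.norm
    exact Subgroup.normal_subgroupOf
  simple := Cfsg.Agent.H106.RC.isSimple_cgr0 (Subgroup.subgroupOfEquivOfLe hN).symm hE.simple
  ncomm := fun h => hE.ncomm (by
    refine ⟨⟨fun a b => ?_⟩⟩
    have h1 := h.is_comm.comm ((Subgroup.subgroupOfEquivOfLe hN).symm a) ((Subgroup.subgroupOfEquivOfLe hN).symm b)
    have h2 := congrArg (Subgroup.subgroupOfEquivOfLe hN) h1
    simpa using h2)
  cent := by
    rw [eq_bot_iff]
    intro x hx
    rw [Subgroup.mem_bot]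
    have h1 : (x : G) ∈ Subgroup.centralizer (N : Set G) := by
      rw [Subgroup.mem_centralizer_iff]
      intro n hn
      have h2 := Subgroup.mem_centralizer_iff.1 hx ⟨n, hN hn⟩ (by
        change (n : G) ∈ N
        exact hn)
      exact congrArg Subtype.val h2
    rw [hE.cent, Subgroup.mem_bot] at h1
    exact Subtype.ext h1
  nofix := fun ω h => hE.nofix ω fun n hn => by
    have h1 := h (show (⟨n, hN hn⟩ : H) ∈ N.subgroupOf H from hn)
    exact h1

end env

/-- **Reduction to the environment `Ev`.** -/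
theorem even_reduce {m : ℕ} (hm : 2 ≤ m) {F : Type} [Field F] [Finite F] (h2 : (2 : F) = 0)
    {G Ω : Type} [Group G] [Finite G] [MulAction G Ω] {N : Subgroup G} (hE : Env G Ω N) (e : N ≃* PSp m F)
    {ι : Type} {x : ι → G} {r : ι → ℕ} (hx : PF x r) (hcov : Cov Ω x)
    (hs : ∀ i, ∃ g : semiSim m F, ∀ n : N, ((e.symm (Psi m F g (e n)) : N) : G) = x i * n * (x i)⁻¹)
    (key : ∀ (H : Type) [Group H] [Finite H] [DistribMulAction H (Fin m ⊕ Fin m → F)] [MulAction H Ω]
      (N' : Subgroup H), Ev (sympBilin m F) N' → Env H Ω N' → (N' ≃* PSp m F) →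
      ∀ y : ι → H, PF y r → Cov Ω y → False) : False := by
  have hnorm := hE.norm
  -- the subgroup of all elements induced by semisimilitudes
  obtain ⟨H, hH⟩ : ∃ H : Subgroup G, ∀ y, y ∈ H ↔
      ∃ g : semiSim m F, ∀ n : N, ((e.symm (Psi m F g (e n)) : N) : G) = y * n * y⁻¹ := by
    obtain ⟨f, hf⟩ : ∃ f : G →* MulAut (PSp m F), ∀ y (n : N), ((e.symm (f y (e n)) : N) : G) = y * n * y⁻¹ :=
      ⟨(MulAut.congr e).toMonoidHom.comp MulAut.conjNormal, fun y n => by
        have h1 : MulAut.congr e (MulAut.conjNormal y) (e n) = e (MulAut.conjNormal y n) := by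
          simp [MulAut.congr]
        change ((e.symm (MulAut.congr e (MulAut.conjNormal y) (e n)) : N) : G) = _
        rw [h1, e.symm_apply_apply, MulAut.conjNormal_apply]⟩
    refine ⟨(Psi m F).range.comap f, fun y => ?_⟩
    rw [Subgroup.mem_comap]
    constructor
    · rintro ⟨g, hg⟩
      exact ⟨g, fun n => by rw [hg, hf]⟩
    · rintro ⟨g, hg⟩
      refine ⟨g, ?_⟩
      apply MulEquiv.ext
      intro n
      obtain ⟨n, rfl⟩ := e.surjective n
      have h1 : e.symm (Psi m F g (e n)) = e.symm (f y (e n)) := Subtype.ext (by rw [hg, hf])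
      exact e.symm.injective h1
  have hN : N ≤ H := by
    intro n hn
    rw [hH]
    obtain ⟨A, hA⟩ := QuotientGroup.mk_surjective (e ⟨n, hn⟩)
    have h1 : rho m F A ∈ semiSim m F := ⟨_, _, one_ne_zero, isSemi_rho A⟩
    refine ⟨⟨rho m F A, h1⟩, fun k => ?_⟩
    obtain ⟨C, hC⟩ := QuotientGroup.mk_surjective (e k)
    have h3 : conjHom m F ⟨rho m F A, h1⟩ C = A * C * A⁻¹ := by
      apply rho_injective
      rw [rho_conjHom, map_mul, map_mul, map_inv]
    rw [← hC, Psi_mk, h3]
    have h4 : (QuotientGroup.mk (A * C * A⁻¹) : PSp m F) = e (⟨n, hn⟩ * k * ⟨n, hn⟩⁻¹) := by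
      rw [map_mul, map_mul, map_inv, ← hA, ← hC]
      rfl
    rw [h4, e.symm_apply_apply]
    rfl
  have hE' := env_restrict hE hN
  have hxH : ∀ i, x i ∈ H := fun i => (hH _).2 (hs i)
  let e' : (N.subgroupOf H) ≃* PSp m F := (Subgroup.subgroupOfEquivOfLe hN).trans e
  obtain ⟨ρ, E⟩ := exists_spEnv_of hm hE' e' (fun α ⟨y, hy⟩ => by
    obtain ⟨g, hg⟩ := (hH _).1 y.2
    refine ⟨g, ?_⟩
    apply MulEquiv.ext
    intro n
    obtain ⟨n, rfl⟩ := e.surjective n
    have h1 := hy ((Subgroup.subgroupOfEquivOfLe hN).symm n)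
    have h2 : e' ((Subgroup.subgroupOfEquivOfLe hN).symm n) = e n := by
      change e (Subgroup.subgroupOfEquivOfLe hN ((Subgroup.subgroupOfEquivOfLe hN).symm n)) = _
      rw [MulEquiv.apply_symm_apply]
    rw [h2] at h1
    have h3 := hg n
    have h4 : ((e.symm (α (e n)) : N) : G) = y * n * (y : G)⁻¹ := congrArg Subtype.val h1
    exact e.symm.injective (Subtype.ext (h3.trans h4.symm)))
  obtain ⟨I, hI⟩ := exists_ev E h2
  let _ := I
  refine key H (N.subgroupOf H) hI hE' e' (fun i => ⟨x i, hxH i⟩) ⟨hx.prime, hx.inj, fun i => ?_, fun i h => ?_,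
    fun i j => ?_⟩ fun ω => ?_
  · exact Subtype.ext (hx.pow i)
  · exact hx.ne i (congrArg Subtype.val h)
  · exact Subtype.ext (hx.comm i j)
  · obtain ⟨i, hi⟩ := hcov ω
    exact ⟨i, hi⟩

/-- for `m ≥ 3` every element is induced by a semisimilitude -/
theorem even_reduce' {m : ℕ} (hm : 3 ≤ m) {F : Type} [Field F] [Finite F] (h2 : (2 : F) = 0)
    {G Ω : Type} [Group G] [Finite G] [MulAction G Ω] {N : Subgroup G} (hE : Env G Ω N) (e : N ≃* PSp m F)
    {ι : Type} {x : ι → G} {r : ι → ℕ} (hx : PF x r) (hcov : Cov Ω x)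
    (key : ∀ (H : Type) [Group H] [Finite H] [DistribMulAction H (Fin m ⊕ Fin m → F)] [MulAction H Ω]
      (N' : Subgroup H), Ev (sympBilin m F) N' → Env H Ω N' → (N' ≃* PSp m F) →
      ∀ y : ι → H, PF y r → Cov Ω y → False) : False := by
  have hnorm := hE.norm
  refine even_reduce (by omega) h2 hE e hx hcov (fun i => ?_) key
  obtain ⟨g, hg⟩ := Cfsg.Agent.H206.PspFix.mem_range_Psi (by omega) (by omega)
    (MulAut.congr e (MulAut.conjNormal (x i))) (Or.inl (Or.inl hm))
  refine ⟨g, fun n => ?_⟩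
  rw [hg]
  have h1 : MulAut.congr e (MulAut.conjNormal (x i)) (e n) = e (MulAut.conjNormal (x i) n) := by
    simp [MulAut.congr]
  rw [h1, e.symm_apply_apply, MulAut.conjNormal_apply]

end Cfsg.Agent.H194.RC
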